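import Cfsg.Agent.K5.A
import Cfsg.Agent.K5.B
import Cfsg.Agent.Uni.A

/-! Four characters of `p'`-degree in the principal block, `p` odd. -/

set_option autoImplicit false
open Cfsg

namespace CF.Kz

theorem odd_half {G : Type*} [Group G] [Finite G] (p : ℕ) [hp : Fact p.Prime] (h2 : p ≠ 2)
    (M : Ideal AlgInt) (hM : IsPModular p M) (P : Sylow p G) :
    Nat.card {χ : IrrCharacter G // χ ∈ principalBlock M G ∧ ¬ p ∣ charDegree (χ : G → ℂ)} = 4 ↔
      Nat.card P = 5 ∧ (Subgroup.centralizer ((P : Subgroup G) : Set G)).relIndex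
        (Subgroup.normalizer ((P : Subgroup G) : Set G)) = 2 := by
  constructor
  · intro h
    have h1 : p ∣ Nat.card G := by
      by_contra h1
      rw [CF.K5.card_eq_one hM h1] at h
      omega
    have h3 := CF.K5.card_sylow_eq P h1
      (CF.K5.not_sq_dvd_of_key hM (m := 3) (CF.Uni.key p h2) (by omega))
    obtain ⟨h4, c, hc⟩ := CF.K5.cnt p h2 M hM P h3
    rw [h] at h4
    generalize (Subgroup.centralizer ((P : Subgroup G) : Set G)).relIndex
        (Subgroup.normalizer ((P : Subgroup G) : Set G)) = e at h4 hc ⊢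
    have h5 := hp.out.two_le
    have he : e ≠ 0 := by rintro rfl; omega
    rw [hc, Nat.mul_div_cancel_left _ (Nat.pos_of_ne_zero he)] at h4
    have h6 : p ≠ 4 := by rintro rfl; exact absurd hp.out (by norm_num)
    have h7 : e ≤ 4 := by omega
    obtain rfl : c = 4 - e := by omega
    rw [h3]
    interval_cases e <;> omega
  · rintro ⟨h, he⟩
    obtain ⟨n, hn⟩ := P.isPGroup'.exists_card_eq
    have h1 : p = 5 := by
      rw [show Nat.card (P : Subgroup G) = 5 from h] at hn
      exact ((Nat.Prime.pow_eq_iff (by norm_num)).1 hn.symm).1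
    subst h1
    rw [(CF.K5.cnt 5 h2 M hM P h).1, he]

theorem index_ne_four {G : Type*} [Group G] [Finite G] (p : ℕ) [hp : Fact p.Prime] (h2 : p ≠ 2)
    (P : Sylow p G) : (commutator ↥P).index ≠ 4 := fun h => by
  obtain ⟨n, hn⟩ := P.isPGroup'.index (commutator ↥P)
  have h1 : p ^ n = 2 ^ 2 := hn.symm.trans h
  have h3 : 2 ∣ p ^ n := h1 ▸ by norm_num
  exact h2 ((Nat.prime_dvd_prime_iff_eq Nat.prime_two hp.out).1
    (Nat.prime_two.dvd_of_dvd_pow h3)).symm

theorem card_ne_five {G : Type*} [Group G] [Finite G] (P : Sylow 2 G) : Nat.card P ≠ 5 :=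
  fun h => by
  obtain ⟨n, hn⟩ := P.isPGroup'.exists_card_eq
  rw [show Nat.card (P : Subgroup G) = 5 from h] at hn
  exact absurd ((Nat.Prime.pow_eq_iff (by norm_num)).1 hn.symm).1 (by norm_num)

end CF.Kz
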